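import Cfsg.Agent.H168.EP.AltUB

/-!
# S3499: bounds for the index, `soc(A) = A_n`, `11 ≤ n ≤ 14`, numbers (helper168)
-/

set_option autoImplicit false

namespace Cfsg.Agent.H168.EP

open Subgroup Cfsg.Agent.H284 Cfsg.Agent.H419.EP Cfsg.Agent.H59.EP

theorem galSum_of_list {g b : ℕ} (l : List (ℕ × ℕ)) (h1 : ∀ x ∈ l, x.1.Prime ∧ 0 < x.2) (h2 : (l.map Prod.fst).Nodup)
    (h3 : (l.map fun x => x.1 ^ x.2).prod = g) (h4 : (l.map fun x => gal x.1 x.2).sum = b) : galSum g = b := by
  rw [← h3, (galSum_list l h1 h2).1, h4]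

theorem gs11a : galSum 39916800 = 417418 :=
  galSum_of_list [(2, 8), (3, 4), (5, 2), (7, 1), (11, 1)] (by norm_num) (by decide) (by norm_num) (by decide +kernel)

theorem gs11b : galSum 19958400 = 29431 :=
  galSum_of_list [(2, 7), (3, 4), (5, 2), (7, 1), (11, 1)] (by norm_num) (by decide) (by norm_num) (by decide +kernel)

theorem gs12a : galSum 479001600 = 229758276 :=
  galSum_of_list [(2, 10), (3, 5), (5, 2), (7, 1), (11, 1)] (by norm_num) (by decide) (by norm_num) (by decide +kernel)

theorem gs12b : galSum 239500800 = 8286129 :=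
  galSum_of_list [(2, 9), (3, 5), (5, 2), (7, 1), (11, 1)] (by norm_num) (by decide) (by norm_num) (by decide +kernel)

theorem gs13a : galSum 6227020800 = 229758277 :=
  galSum_of_list [(2, 10), (3, 5), (5, 2), (7, 1), (11, 1), (13, 1)] (by norm_num) (by decide) (by norm_num) (by decide +kernel)

theorem gs13b : galSum 3113510400 = 8286130 :=
  galSum_of_list [(2, 9), (3, 5), (5, 2), (7, 1), (11, 1), (13, 1)] (by norm_num) (by decide) (by norm_num) (by decide +kernel)

theorem gs14a : galSum 87178291200 = 8933491424 :=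
  galSum_of_list [(2, 11), (3, 5), (5, 2), (7, 2), (11, 1), (13, 1)] (by norm_num) (by decide) (by norm_num) (by decide +kernel)

theorem gs14b : galSum 43589145600 = 229758285 :=
  galSum_of_list [(2, 10), (3, 5), (5, 2), (7, 2), (11, 1), (13, 1)] (by norm_num) (by decide) (by norm_num) (by decide +kernel)

variable {Q : Type*} [Group Q] [Finite Q] {A : Subgroup Q} {Γ : Subgroup (MulAut Q)}

theorem index_alt11_of' (hg : TwoGen.{0}) (hs : IsSimpleGroup Q) (h : EPT A Γ) (hS : HasSoc A (alternatingGroup (Fin 11))) :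
    A.index < 4 * 10 ^ 20 := by
  obtain ⟨g, hg1, hi⟩ := index_alt_le hg hs h hS (by norm_num) (by norm_num)
  have hf : (11 : ℕ).factorial = 39916800 := by decide
  rw [hf] at hg1 hi
  refine hi.trans_lt ?_
  rcases hg1 with hg1 | hg1
  · rw [hg1, gs11a]
    norm_num
  · have hg2 : g = 19958400 := by omega
    rw [hg2, gs11b]
    norm_num

theorem index_alt11_of (hg : TwoGen.{0}) (hs : IsSimpleGroup Q) (h : EPT A Γ) (hS : HasSoc A (alternatingGroup (Fin 11))) :
    A.index < 10 ^ 21 :=
  (index_alt11_of' hg hs h hS).trans (by norm_num)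

theorem index_alt12_of (hg : TwoGen.{0}) (hs : IsSimpleGroup Q) (h : EPT A Γ) (hS : HasSoc A (alternatingGroup (Fin 12))) :
    A.index < 10 ^ 25 := by
  obtain ⟨g, hg1, hi⟩ := index_alt_le hg hs h hS (by norm_num) (by norm_num)
  have hf : (12 : ℕ).factorial = 479001600 := by decide
  rw [hf] at hg1 hi
  refine hi.trans_lt ?_
  rcases hg1 with hg1 | hg1
  · rw [hg1, gs12a]
    norm_num
  · have hg2 : g = 239500800 := by omega
    rw [hg2, gs12b]
    norm_num

theorem index_alt13_of (hg : TwoGen.{0}) (hs : IsSimpleGroup Q) (h : EPT A Γ) (hS : HasSoc A (alternatingGroup (Fin 13))) :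
    A.index < 2 * 10 ^ 27 := by
  obtain ⟨g, hg1, hi⟩ := index_alt_le hg hs h hS (by norm_num) (by norm_num)
  have hf : (13 : ℕ).factorial = 6227020800 := by decide
  rw [hf] at hg1 hi
  refine hi.trans_lt ?_
  rcases hg1 with hg1 | hg1
  · rw [hg1, gs13a]
    norm_num
  · have hg2 : g = 3113510400 := by omega
    rw [hg2, gs13b]
    norm_num

theorem index_alt14_of (hg : TwoGen.{0}) (hs : IsSimpleGroup Q) (h : EPT A Γ) (hS : HasSoc A (alternatingGroup (Fin 14))) :
    A.index < 10 ^ 31 := by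
  obtain ⟨g, hg1, hi⟩ := index_alt_le hg hs h hS (by norm_num) (by norm_num)
  have hf : (14 : ℕ).factorial = 87178291200 := by decide
  rw [hf] at hg1 hi
  refine hi.trans_lt ?_
  rcases hg1 with hg1 | hg1
  · rw [hg1, gs14a]
    norm_num
  · have hg2 : g = 43589145600 := by omega
    rw [hg2, gs14b]
    norm_num

end Cfsg.Agent.H168.EP
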