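import Cfsg.Agent.H168.EP.Alt
import Cfsg.Agent.S0713

/-!
# S3499: maximal subgroups of `A_n ≤ G ≤ S_n` not containing `A_n` (helper168)
-/

set_option autoImplicit false

namespace Cfsg.Agent.H168.EP

open Equiv Equiv.Perm Subgroup MulAction Cfsg.Agent.H839.EP

variable {n : ℕ}

/-- the stabiliser of an equivalence relation -/
def stabS (r : Setoid (Fin n)) : Subgroup (Perm (Fin n)) where
  carrier := {g | ∀ x y, r (g x) (g y) ↔ r x y}
  one_mem' := fun _ _ => Iff.rfl
  mul_mem' := fun {g h} hg hh x y => (hg (h x) (h y)).trans (hh x y)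
  inv_mem' := fun {g} hg x y => by
    have h1 := hg (g⁻¹ x) (g⁻¹ y)
    have e : ∀ z, g (g⁻¹ z) = z := fun z => g.apply_symm_apply z
    rw [e, e] at h1
    exact h1.symm

theorem mem_stabS {r : Setoid (Fin n)} {g : Perm (Fin n)} : g ∈ stabS r ↔ ∀ x y, r (g x) (g y) ↔ r x y := Iff.rfl

/-- enough to be compatible in one direction (finite) for a subgroup -/
theorem le_stabS {r : Setoid (Fin n)} {L : Subgroup (Perm (Fin n))} (h : ∀ g ∈ L, ∀ x y, r x y → r (g x) (g y)) :
    L ≤ stabS r := by
  intro g hg x y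
  refine ⟨fun h1 => ?_, h g hg x y⟩
  have h2 := h _ (L.inv_mem hg) _ _ h1
  have e : ∀ z, g⁻¹ (g z) = z := fun z => g.symm_apply_apply z
  rwa [e, e] at h2

theorem eq_bot_or_top_of_alt (hn : 3 ≤ n) {r : Setoid (Fin n)} (h : alternatingGroup (Fin n) ≤ stabS r) :
    (∀ x y, r x y → x = y) ∨ ∀ x y, r x y := by
  have hpre : IsPreprimitive (alternatingGroup (Fin n)) (Fin n) :=
    alternatingGroup.isPreprimitive_of_three_le_card (Fin n) (by simpa using hn)
  by_cases hr : ∀ x y, r x y → x = y
  · exact Or.inl hr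
  right
  push Not at hr
  obtain ⟨x, y, hxy, hne⟩ := hr
  have hB : IsBlock (alternatingGroup (Fin n)) {z | r x z} := by
    rw [isBlock_iff_smul_eq_or_disjoint]
    intro g
    rw [or_iff_not_imp_right, Set.not_disjoint_iff]
    rintro ⟨z, ⟨w, hw, rfl⟩, hz⟩
    have hg := h g.2
    have h1 : r x ((g : Perm (Fin n)) w) := hz
    have h2 : r ((g : Perm (Fin n)) x) x := r.trans ((hg x w).2 hw) (r.symm h1)
    ext v
    constructor
    · rintro ⟨u, hu, rfl⟩
      exact r.trans (r.symm h2) ((hg x u).2 hu)
    · intro hv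
      refine ⟨(g : Perm (Fin n))⁻¹ v, ?_, (g : Perm (Fin n)).apply_symm_apply v⟩
      change r x ((g : Perm (Fin n))⁻¹ v)
      rw [← hg]
      have e : (g : Perm (Fin n)) ((g : Perm (Fin n))⁻¹ v) = v := (g : Perm (Fin n)).apply_symm_apply v
      rw [e]
      exact r.trans h2 hv
  rcases hpre.isTrivialBlock_of_isBlock hB with h1 | h1
  · exact absurd (h1 (r.refl x) hxy) hne
  · have h2 : ∀ z, r x z := by
      intro z
      have : z ∈ {z | r x z} := by rw [h1]; exact Set.mem_univ z
      exact this
    intro u v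
    exact r.trans (r.symm (h2 u)) (h2 v)

/-- **not primitive**: `L` is the stabiliser of an equivalence relation -/
theorem MaxNot.eq_stabS (hn : 5 ≤ n) {G L : Subgroup (Perm (Fin n))} (hG : alternatingGroup (Fin n) ≤ G) (hL : MaxNot G L)
    (hnp : ¬ IsPreprimitive L (Fin n)) : ∃ r : Setoid (Fin n), L = G ⊓ stabS r := by
  have key : ∀ r : Setoid (Fin n), (∃ x y, r x y ∧ x ≠ y) → (∃ x y, ¬ r x y) → L ≤ stabS r → L = G ⊓ stabS r := by
    intro r ⟨x, y, hxy, hne⟩ ⟨u, v, huv⟩ hLr
    apply Cfsg.Agent.H839.EP.MaxNot.eq_inf hG hL hLr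
    intro hA
    rcases eq_bot_or_top_of_alt (by omega) hA with h1 | h1
    · exact hne (h1 x y hxy)
    · exact huv (h1 u v)
  by_cases htr : IsPretransitive L (Fin n)
  · -- a block
    obtain ⟨B, hB, hBt⟩ : ∃ B : Set (Fin n), IsBlock L B ∧ ¬ IsTrivialBlock B := by
      by_contra hcon
      push Not at hcon
      exact hnp { htr with isTrivialBlock_of_isBlock := fun {B} hB => hcon B hB }
    have hBne : B.Nonempty := by
      rw [Set.nonempty_iff_ne_empty]
      rintro rfl
      exact hBt (Or.inl Set.subsingleton_empty)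
    obtain ⟨b, hb⟩ := hBne
    have hstep : ∀ k : L, ∀ z, z ∈ B → (k : Perm (Fin n)) z ∈ B → ∀ w ∈ B, (k : Perm (Fin n)) w ∈ B := by
      intro k z hz hkz w hw
      have h1 := (isBlock_iff_smul_eq_or_disjoint.1 hB k).resolve_right (by
        rw [Set.not_disjoint_iff]
        exact ⟨(k : Perm (Fin n)) z, ⟨z, hz, rfl⟩, hkz⟩)
      rw [← h1]
      exact ⟨w, hw, rfl⟩
    let r : Setoid (Fin n) :=
      { r := fun x y => ∃ g ∈ L, g x ∈ B ∧ g y ∈ B
        iseqv :=
          { refl := fun x => by
              obtain ⟨g, hg⟩ := htr.exists_smul_eq x b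
              refine ⟨g, g.2, ?_, ?_⟩ <;>
              · have e : (g : Perm (Fin n)) x = b := hg
                rw [e]
                exact hb
            symm := fun ⟨g, hg, h1, h2⟩ => ⟨g, hg, h2, h1⟩
            trans := by
              rintro x y z ⟨g, hg, h1, h2⟩ ⟨h, hh, h3, h4⟩
              refine ⟨h, hh, ?_, h4⟩
              have e : ∀ w, (h * g⁻¹) (g w) = h w := fun w => congrArg h (g.symm_apply_apply w)
              have h5 := hstep ⟨h * g⁻¹, L.mul_mem hh (L.inv_mem hg)⟩ (g y) h2 (by
                change (h * g⁻¹) (g y) ∈ B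
                rw [e]
                exact h3) (g x) h1
              change (h * g⁻¹) (g x) ∈ B at h5
              rwa [e] at h5 } }
    refine ⟨r, key r ?_ ?_ ?_⟩
    · have h1 : ¬ B.Subsingleton := fun h => hBt (Or.inl h)
      rw [Set.not_subsingleton_iff] at h1
      obtain ⟨x, hx, y, hy, hne⟩ := h1
      exact ⟨x, y, ⟨1, L.one_mem, hx, hy⟩, hne⟩
    · by_contra hcon
      push Not at hcon
      apply hBt
      right
      rw [Set.eq_univ_iff_forall]
      intro y
      obtain ⟨g, hg, h1, h2⟩ := hcon b y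
      have h3 := hstep ⟨g⁻¹, L.inv_mem hg⟩ (g b) h1 (by
        change g⁻¹ (g b) ∈ B
        have e : g⁻¹ (g b) = b := g.symm_apply_apply b
        rw [e]
        exact hb) (g y) h2
      change g⁻¹ (g y) ∈ B at h3
      have e : g⁻¹ (g y) = y := g.symm_apply_apply y
      rwa [e] at h3
    · apply le_stabS
      rintro k hk x y ⟨g, hg, h1, h2⟩
      have e : ∀ w, (g * k⁻¹) (k w) = g w := fun w => congrArg g (k.symm_apply_apply w)
      refine ⟨g * k⁻¹, L.mul_mem hg (L.inv_mem hk), ?_, ?_⟩
      · rw [e]; exact h1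
      · rw [e]; exact h2
  · -- the orbits
    refine ⟨orbitRel L (Fin n), key _ ?_ ?_ ?_⟩
    · by_contra hcon
      push Not at hcon
      have hLb : L = ⊥ := by
        rw [Subgroup.eq_bot_iff_forall]
        intro g hg
        ext x
        have h1 : orbitRel L (Fin n) (g x) x := ⟨⟨g, hg⟩, rfl⟩
        rw [hcon _ _ h1, one_apply]
      have hnc : ¬ IsMulCommutative (alternatingGroup (Fin n)) := by
        rw [alternatingGroup.isMulCommutative_iff_card_le_three]
        simp
        omega
      have hnt : Nontrivial (alternatingGroup (Fin n)) := alternatingGroup.nontrivial_of_three_le_card (by simp; omega)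
      obtain ⟨g, hg⟩ := exists_ne (1 : alternatingGroup (Fin n))
      have hg' : (g : Perm (Fin n)) ≠ 1 := fun h => hg (Subtype.ext h)
      rcases hL.max (zpowers (g : Perm (Fin n))) (by rw [hLb]; exact bot_le) (by
        rw [zpowers_le]
        exact hG g.2) with h1 | h1
      · apply hg'
        have h2 := mem_zpowers (g : Perm (Fin n))
        rw [h1, hLb, Subgroup.mem_bot] at h2
        exact h2
      · apply hnc
        refine ⟨⟨fun a b => ?_⟩⟩
        have ha := hG a.2
        have hb := hG b.2
        rw [← h1] at ha hb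
        obtain ⟨i, hi⟩ := mem_zpowers_iff.1 ha
        obtain ⟨j, hj⟩ := mem_zpowers_iff.1 hb
        apply Subtype.ext
        change (a : Perm (Fin n)) * b = b * a
        rw [← hi, ← hj, ← zpow_add, ← zpow_add, add_comm]
    · by_contra hcon
      push Not at hcon
      apply htr
      refine ⟨fun x y => ?_⟩
      obtain ⟨g, hg⟩ := hcon y x
      exact ⟨g, hg⟩
    · apply le_stabS
      rintro k hk x y ⟨g, hg⟩
      refine ⟨⟨k, hk⟩ * g * ⟨k, hk⟩⁻¹, ?_⟩
      have hg' : (g : Perm (Fin n)) y = x := hg
      change k ((g : Perm (Fin n)) (k⁻¹ (k y))) = k x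
      have e : k⁻¹ (k y) = y := k.symm_apply_apply y
      rw [e, hg']

/-- the number of setoids -/
theorem card_setoid_le : Nat.card (Setoid (Fin n)) ≤ n ^ n := by
  have h1 : Function.Injective (fun (r : Setoid (Fin n)) (x : Fin n) => (Quotient.mk r x).out) := by
    intro r s h
    apply Setoid.ext
    intro x y
    have h2 : ∀ z, (Quotient.mk r z).out = (Quotient.mk s z).out := fun z => congrFun h z
    constructor
    · intro hxy
      have h3 : Quotient.mk r x = Quotient.mk r y := Quotient.sound hxy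
      have h4 : (Quotient.mk s x).out = (Quotient.mk s y).out := by rw [← h2, ← h2, h3]
      exact Quotient.exact (Quotient.out_injective h4)
    · intro hxy
      have h3 : Quotient.mk s x = Quotient.mk s y := Quotient.sound hxy
      have h4 : (Quotient.mk r x).out = (Quotient.mk r y).out := by rw [h2, h2, h3]
      exact Quotient.exact (Quotient.out_injective h4)
  have h2 := Nat.card_le_card_of_injective _ h1
  rw [Nat.card_pi] at h2
  simpa using h2

/-- the number of the imprimitive ones -/
theorem ncard_imprim_le (G : Subgroup (Perm (Fin n))) :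
    {L : Subgroup (Perm (Fin n)) | ∃ r : Setoid (Fin n), L = G ⊓ stabS r}.ncard ≤ n ^ n := by
  have : Finite (Setoid (Fin n)) := by
    apply Finite.of_injective (fun (r : Setoid (Fin n)) (x y : Fin n) => r x y)
    intro r s h
    apply Setoid.ext
    intro x y
    exact iff_of_eq (congrFun (congrFun h x) y)
  have h1 : {L : Subgroup (Perm (Fin n)) | ∃ r : Setoid (Fin n), L = G ⊓ stabS r} ⊆
      Set.range (fun r : Setoid (Fin n) => G ⊓ stabS r) := by
    rintro _ ⟨r, rfl⟩
    exact ⟨r, rfl⟩
  refine (Set.ncard_le_ncard h1 (Set.toFinite _)).trans ?_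
  rw [← Set.image_univ]
  refine (Set.ncard_image_le (Set.toFinite _)).trans ?_
  rw [Set.ncard_univ]
  exact card_setoid_le

/-- a primitive group, not `≥ A_n`, has small Sylow `p`-subgroups for `n < 3 p`, `p ≤ n - 3` -/
theorem not_sq_dvd {p : ℕ} (hp : p.Prime) (hp2 : 3 ≤ p) (hp3 : n < 3 * p) (hpn : p + 3 ≤ n) {L : Subgroup (Perm (Fin n))}
    (hprim : IsPreprimitive L (Fin n)) (hL : ¬ alternatingGroup (Fin n) ≤ L) : ¬ p ^ 2 ∣ Nat.card L := by
  classical
  intro hd
  apply hL
  have hpf : Fact p.Prime := ⟨hp⟩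
  obtain ⟨P, hP⟩ := Sylow.exists_subgroup_card_pow_prime p hd
  have hpg : IsPGroup p P := IsPGroup.of_card hP
  have hcomm : ∀ a b : P, a * b = b * a := by
    have := IsPGroup.isMulCommutative_of_card_eq_prime_sq hP
    intro a b
    exact mul_comm' a b
  have hPne : P ≠ ⊥ := by
    intro h
    rw [h, Subgroup.card_bot] at hP
    exact absurd hP (Nat.one_lt_pow (by norm_num) hp.one_lt).ne
  obtain ⟨a, ha, ha1⟩ : ∃ a ∈ P, a ≠ 1 := by
    by_contra hcon
    push Not at hcon
    exact hPne ((Subgroup.eq_bot_iff_forall _).2 hcon)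
  obtain ⟨y, hy⟩ : ∃ y, (a : Perm (Fin n)) y ≠ y := by
    by_contra hcon
    push Not at hcon
    exact ha1 (Subtype.ext (Equiv.ext hcon))
  -- the orbit of `y`
  have hor : Nat.card (orbit P y) = p := by
    obtain ⟨k, hk⟩ := hpg.card_orbit y
    have h1 : Nat.card (orbit P y) ≤ n := by
      have h6 := Nat.card_le_card_of_injective (Subtype.val : orbit P y → Fin n) Subtype.val_injective
      rwa [Nat.card_eq_fintype_card (α := Fin n), Fintype.card_fin] at h6
    have h2 : k ≠ 0 := by
      rintro rfl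
      rw [pow_zero, Nat.card_eq_one_iff_unique] at hk
      have hs := hk.1
      have h3 : (⟨(a : Perm (Fin n)) y, ⟨⟨a, ha⟩, rfl⟩⟩ : orbit P y) = ⟨y, mem_orbit_self y⟩ := Subsingleton.elim _ _
      exact hy (congrArg Subtype.val h3)
    have h3 : k < 2 := by
      by_contra hcon
      have h4 : p ^ 2 ≤ p ^ k := Nat.pow_le_pow_right hp.pos (by omega)
      nlinarith
    have h4 : k = 1 := by omega
    rw [hk, h4, pow_one]
  -- the stabiliser
  have hst : Nat.card (stabilizer P y) = p := by
    have h1 := (stabilizer P y).card_mul_index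
    rw [index_stabilizer, ← Nat.card_coe_set_eq, hor, hP, pow_two] at h1
    exact Nat.eq_of_mul_eq_mul_right hp.pos h1
  have hsne : stabilizer P y ≠ ⊥ := by
    intro h
    rw [h, Subgroup.card_bot] at hst
    exact hp.one_lt.ne hst
  obtain ⟨z, hz, hz1⟩ : ∃ z ∈ stabilizer P y, z ≠ 1 := by
    by_contra hcon
    push Not at hcon
    exact hsne ((Subgroup.eq_bot_iff_forall _).2 hcon)
  set w : Perm (Fin n) := ((z : L) : Perm (Fin n)) with hw
  have hwy : w y = y := hz
  have hw1 : w ≠ 1 := fun h => hz1 (Subtype.ext (Subtype.ext h))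
  have hwo : orderOf w = p := by
    have h1 : (⟨z, hz⟩ : stabilizer P y) ^ p = 1 := by
      rw [← hst]
      exact pow_card_eq_one'
    have h2 : z ^ p = 1 := congrArg Subtype.val h1
    have h3 : w ^ p = 1 := by
      have := congrArg (fun t : P => ((t : L) : Perm (Fin n))) h2
      simpa using this
    exact orderOf_eq_prime h3 hw1
  -- the support of `w`
  have hsup : w.support.card < 2 * p := by
    have h1 : _root_.Disjoint w.support (orbit P y).toFinset := by
      rw [Finset.disjoint_left]
      intro x hx hxo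
      rw [Set.mem_toFinset] at hxo
      obtain ⟨u, rfl⟩ := hxo
      rw [mem_support] at hx
      apply hx
      have h2 := congrArg (fun t : P => ((t : L) : Perm (Fin n)) y) (hcomm z u)
      have h3 : w (((u : L) : Perm (Fin n)) y) = ((u : L) : Perm (Fin n)) (w y) := h2
      rw [hwy] at h3
      exact h3
    have h2 := Finset.card_le_univ (w.support ∪ (orbit P y).toFinset)
    rw [Finset.card_union_of_disjoint h1, Fintype.card_fin, Set.toFinset_card, ← Nat.card_eq_fintype_card, hor] at h2
    omega
  obtain ⟨k, hk⟩ := cycleType_prime_order (σ := w) (by rw [hwo]; exact hp)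
  rw [hwo] at hk
  have h1 := sum_cycleType w
  rw [hk, Multiset.sum_replicate, smul_eq_mul] at h1
  have h2 : k = 0 := by
    by_contra hcon
    have h3 : 2 ≤ k + 1 := by omega
    have h4 := Nat.mul_le_mul_right p h3
    omega
  subst h2
  refine Cfsg.Agent.S0713.result L hprim hp (by rw [Fintype.card_fin]; have := hp.two_le; omega) (by
    rw [Fintype.card_fin]
    exact hpn) (g := w) ?_ ?_ (z : L).2
  · rw [← card_cycleType_eq_one, hk]
    rfl
  · rw [← h1]
    omega

end Cfsg.Agent.H168.EP
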